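import Mathlib
import Cfsg.Prelude.Def_Transfer
import Cfsg.Agent.PGroup.Basic
import Cfsg.Agent.Metacyclic.Basic
import Cfsg.Agent.S0100

/-!
In a `p`-group (`p` odd) with an elementary abelian subgroup of order `p ^ 3`, every normal elementary
abelian subgroup of order `p ^ 2` lies in a normal one of order at least `p ^ 3`.
-/

set_option autoImplicit false

namespace CfsgLib.NormalEl

open scoped commutatorElement

variable {G : Type*} [Group G] {p : ℕ}

theorem commute_of_elementary {A : Subgroup G} (hA : Cfsg.IsElementaryAbelian p A) {x y : G}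
    (hx : x ∈ A) (hy : y ∈ A) : x * y = y * x :=
  haveI := hA.1
  setLike_mul_comm hx hy

/-- The join of two commuting elementary abelian subgroups. -/
theorem elementary_sup {A B : Subgroup G} (hA : Cfsg.IsElementaryAbelian p A)
    (hB : Cfsg.IsElementaryAbelian p B) (hc : ∀ a ∈ A, ∀ b ∈ B, a * b = b * a) :
    Cfsg.IsElementaryAbelian p (A ⊔ B) := by
  have hA' : A ⊔ B ≤ Subgroup.centralizer (A : Set G) := sup_le
    (fun x hx => Subgroup.mem_centralizer_iff.2 fun a ha => commute_of_elementary hA ha hx)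
    (fun x hx => Subgroup.mem_centralizer_iff.2 fun a ha => hc a ha x hx)
  have hB' : A ⊔ B ≤ Subgroup.centralizer (B : Set G) := sup_le
    (fun x hx => Subgroup.mem_centralizer_iff.2 fun b hb => (hc x hx b hb).symm)
    (fun x hx => Subgroup.mem_centralizer_iff.2 fun b hb => commute_of_elementary hB hb hx)
  have h : A ⊔ B ≤ Subgroup.centralizer ((A ⊔ B : Subgroup G) : Set G) :=
    Subgroup.le_centralizer_iff.1 (sup_le (Subgroup.le_centralizer_iff.1 hA') (Subgroup.le_centralizer_iff.1 hB'))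
  have hab : IsMulCommutative (A ⊔ B : Subgroup G) := Subgroup.le_centralizer_iff_isMulCommutative.1 h
  refine ⟨hab, fun x hx => ?_⟩
  rw [Subgroup.sup_eq_closure] at hx
  have hmem : ∀ y ∈ Subgroup.closure ((A : Set G) ∪ (B : Set G)), y ∈ A ⊔ B := fun y hy => by
    rwa [Subgroup.sup_eq_closure]
  refine Subgroup.closure_induction ?_ (one_pow p) ?_ ?_ hx
  · rintro y (hy | hy)
    exacts [hA.2 y hy, hB.2 y hy]
  · intro y z hy hz hy' hz'
    rw [Commute.mul_pow (setLike_mul_comm (hmem y hy) (hmem z hz)), hy', hz', one_mul]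
  · intro y _ hy'
    rw [inv_pow, hy', inv_one]

/-- A subgroup strictly above one of order `p ^ k` in a `p`-group has order at least `p ^ (k + 1)`. -/
theorem pow_succ_le_card [Finite G] [Fact p.Prime] (hG : IsPGroup p G) {A B : Subgroup G} (h : A < B) {k : ℕ}
    (hA : Nat.card A = p ^ k) : p ^ (k + 1) ≤ Nat.card B := by
  have hlt : Nat.card A < Nat.card B := by
    by_contra hle
    exact h.ne (Subgroup.eq_of_le_of_card_ge h.le (Nat.le_of_not_lt hle))
  obtain ⟨b, hb⟩ := (hG.to_subgroup B).exists_card_eq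
  rw [hA, hb, Nat.pow_lt_pow_iff_right (Fact.out : p.Prime).one_lt] at hlt
  rw [hb]
  exact Nat.pow_le_pow_right (Fact.out : p.Prime).pos hlt

theorem exists_normal_over [Finite G] [Fact p.Prime] (hp : p ≠ 2) (hG : IsPGroup p G)
    (hr : ¬ Cfsg.PRankLE p 2 G) (E : Subgroup G) [hEn : E.Normal] (hE : Cfsg.IsElementaryAbelian p E)
    (hE2 : Nat.card E = p ^ 2) :
    ∃ A : Subgroup G, E ≤ A ∧ A.Normal ∧ Cfsg.IsElementaryAbelian p A ∧ p ^ 3 ≤ Nat.card A := by
  classical
  have hpp : p.Prime := Fact.out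
  obtain ⟨B, hBn, hBc, hBp, hB3⟩ : ∃ B : Subgroup G,
      B.Normal ∧ IsMulCommutative B ∧ (∀ b ∈ B, b ^ p = 1) ∧ Nat.card B = p ^ 3 := by
    by_contra hc
    exact hr fun A hA hAe => Cfsg.Agent.S0100.result hp hG
      (fun B h1 h2 h3 h4 => hc ⟨B, h1, h2, h3, h4⟩) A hA hAe
  have hB : Cfsg.IsElementaryAbelian p B := ⟨hBc, hBp⟩
  by_cases hEB : E ≤ B
  · exact ⟨B, hEB, hBn, hB, hB3.ge⟩
  have hcomm : ∀ b ∈ B, ∀ e ∈ E, ⁅b, e⁆ ∈ B ⊓ E := fun b hb e he => by
    rw [commutatorElement_def]
    refine ⟨?_, ?_⟩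
    · rw [show b * e * b⁻¹ * e⁻¹ = b * (e * b⁻¹ * e⁻¹) by group]
      exact B.mul_mem hb (hBn.conj_mem _ (B.inv_mem hb) e)
    · exact E.mul_mem (hEn.conj_mem _ he b) (E.inv_mem he)
  obtain ⟨k, hk⟩ := (hG.to_subgroup (B ⊓ E)).exists_card_eq
  have hDlt : B ⊓ E < E := lt_of_le_of_ne inf_le_right fun h => hEB (inf_eq_right.1 h)
  have hk1 : k ≤ 1 := by
    have h := pow_succ_le_card hG hDlt hk
    rw [hE2, Nat.pow_le_pow_iff_right hpp.one_lt] at h
    omega
  obtain ⟨e0, he0, he0'⟩ := SetLike.exists_of_lt hDlt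
  have hC : p ^ 2 ≤ Nat.card (B ⊓ Subgroup.centralizer (E : Set G) : Subgroup G) := by
    interval_cases k
    · have hbot : B ⊓ E = ⊥ := Subgroup.card_eq_one.1 (by rw [hk, pow_zero])
      have : B ≤ Subgroup.centralizer (E : Set G) := fun b hb => Subgroup.mem_centralizer_iff.2 fun e he => by
        have h := hcomm b hb e he
        rw [hbot, Subgroup.mem_bot, commutatorElement_eq_one_iff_mul_comm] at h
        exact h.symm
      rw [inf_eq_left.2 this, hB3]
      exact Nat.pow_le_pow_right hpp.pos (by omega)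
    · have hle : B ⊓ Subgroup.centralizer ({e0} : Set G) ≤ B ⊓ Subgroup.centralizer (E : Set G) := by
        refine le_inf inf_le_left fun b hb => ?_
        obtain ⟨hbB, hbe⟩ := hb
        have hEle : E = (B ⊓ E) ⊔ Subgroup.zpowers e0 := by
          refine (Subgroup.eq_of_le_of_card_ge (sup_le inf_le_right (Subgroup.zpowers_le.2 he0)) ?_).symm
          have h : B ⊓ E < (B ⊓ E) ⊔ Subgroup.zpowers e0 := lt_of_le_of_ne le_sup_left fun h =>
            he0' (h ▸ (le_sup_right : Subgroup.zpowers e0 ≤ _) (Subgroup.mem_zpowers e0))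
          rw [hE2]
          exact pow_succ_le_card hG h hk
        have : E ≤ Subgroup.centralizer ({b} : Set G) := by
          rw [hEle, sup_le_iff, Subgroup.zpowers_le]
          exact ⟨fun x hx => Subgroup.mem_centralizer_singleton_iff.2 (commute_of_elementary hB hx.1 hbB),
            Subgroup.mem_centralizer_singleton_iff.2 (Subgroup.mem_centralizer_singleton_iff.1 hbe).symm⟩
        exact Subgroup.mem_centralizer_iff.2 fun x hx => Subgroup.mem_centralizer_singleton_iff.1 (this hx)
      refine le_trans ?_ (Subgroup.card_le_of_le hle)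
      have h1 := CfsgLib.Metacyclic.Data.relIndex_centralizer_le e0 B (B ⊓ E) (fun b hb => hcomm b hb e0 he0)
      rw [hk, pow_one, ← Subgroup.inf_relIndex_left] at h1
      have h2 := Subgroup.relIndex_mul_relIndex (⊥ : Subgroup G) _ B bot_le
        (inf_le_left : B ⊓ Subgroup.centralizer ({e0} : Set G) ≤ B)
      rw [Subgroup.relIndex_bot_left, Subgroup.relIndex_bot_left] at h2
      rw [hB3] at h2
      have h3 : p ^ 3 ≤ Nat.card (B ⊓ Subgroup.centralizer ({e0} : Set G) : Subgroup G) * p :=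
        h2 ▸ Nat.mul_le_mul_left _ h1
      exact Nat.le_of_mul_le_mul_right (by rw [← pow_succ]; exact h3) hpp.pos
  have hCel : Cfsg.IsElementaryAbelian p (B ⊓ Subgroup.centralizer (E : Set G)) :=
    ⟨Subgroup.le_centralizer_iff_isMulCommutative.1 fun x hx =>
      Subgroup.mem_centralizer_iff.2 fun y hy => commute_of_elementary hB hy.1 hx.1, fun x hx => hBp x hx.1⟩
  refine ⟨E ⊔ (B ⊓ Subgroup.centralizer (E : Set G)), le_sup_left, inferInstance,
    elementary_sup hE hCel (fun e he b hb => Subgroup.mem_centralizer_iff.1 hb.2 e he), ?_⟩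
  refine pow_succ_le_card hG (lt_of_le_of_ne le_sup_left fun h => ?_) hE2
  have hCE : B ⊓ Subgroup.centralizer (E : Set G) ≤ B ⊓ E :=
    le_inf inf_le_left (le_sup_right.trans h.ge)
  have h4 := hC.trans (Subgroup.card_le_of_le hCE)
  rw [hk, Nat.pow_le_pow_iff_right hpp.one_lt] at h4
  omega

end CfsgLib.NormalEl
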